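import Cfsg.Agent.R2.F4T.Sd
import Cfsg.Agent.R2.H28.SL2.Bas

/-!
# S5931, theta types: symmetric squares (helper27)

* `tri_zero` : an equivariant symmetric product `W × W → V / Z` vanishes if the label of `V / Z` is not a factor of `S² W`;
* `even_of_sq` : the digits of the factors of `S² V_b` are even if there is no overflow;
* `not_mem_sq` : `b` is not a factor of `S² V_b` for the types `[1,1,2]`, `[1,5]`, `p ≥ 7`.
-/

set_option autoImplicit false
set_option linter.unusedSectionVars false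

namespace Cfsg.Agent.R2.H27.F4Th

open Matrix Cfsg.Agent.H943.SL2Rel Cfsg.Agent.H943.SL2Mod Cfsg.Agent.H943.RepAdd Cfsg.Agent.R2.H28.SL2
open Cfsg.Agent.R2.SL2 (typ tyl coe_tyl typ_step typ_zero tyl_eq_nil mem_typ)
open scoped TensorProduct

universe u v w

section dig

variable {p : ℕ} [hp : Fact p.Prime]

/-- the elements of the type are digits -/
theorem exists_digit {b d : ℕ} (h : d ∈ typ p b) : ∃ l, b / p ^ l % p = d := by
  unfold typ at h
  rw [Multiset.mem_coe, List.mem_filter] at h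
  obtain ⟨i, hi, e⟩ := List.mem_iff_getElem.1 h.1
  refine ⟨i, ?_⟩
  rw [← Nat.getD_digits b i hp.out.two_le, List.getD_eq_getElem _ _ hi, e]

theorem exists_digit_lt {a b d : ℕ} (hb : b < p ^ a) (h : d ∈ tyl p b) : ∃ l < a, b / p ^ l % p = d := by
  have h0 : d ∈ typ p b := by rw [← coe_tyl]; exact h
  obtain ⟨l, hl⟩ := exists_digit h0
  refine ⟨l, ?_, hl⟩
  by_contra hla
  rw [dg_zero_of_le hp.out.pos hb (not_lt.1 hla)] at hl
  have := (mem_typ hp.out.one_lt h0).1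
  omega

end dig

variable {k : Type u} [Field k] [DecidableEq k] {F : Type w} [Field F] [Fintype F] [DecidableEq F] (ι : F →+* k)
variable (p : ℕ) [Fact p.Prime] [CharP k p] [CharP F p] [IsAlgClosed k] {a : ℕ}

/-- **the vanishing of products** -/
theorem tri_zero {V : Type v} [AddCommGroup V] [Module k V] [FiniteDimensional k V]
    {ρ : Representation k (SpecialLinearGroup (Fin 2) F) V} {Z : Submodule k V} (hZ : ∀ g, ∀ x ∈ Z, ρ g x ∈ Z) {c : ℕ}
    (hq : cf (Sy.{u, v, w} ι p) (quotRep ρ Z hZ) = {c}) {W : Submodule k V} (hW : ∀ g, ∀ x ∈ W, ρ g x ∈ W)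
    (hc : c ∉ cf (Sy.{u, v, w} ι p) (Sq (subRep ρ W hW))) {β : V →ₗ[k] V →ₗ[k] V} (hs : ∀ x y, β x y = β y x)
    (he : ∀ g x y, β (ρ g x) (ρ g y) = ρ g (β x y)) {x y : V} (hx : x ∈ W) (hy : y ∈ W) : β x y ∈ Z := by
  by_contra hcon
  let γ : W →ₗ[k] W →ₗ[k] (V ⧸ Z) := (β.compl₁₂ W.subtype W.subtype).compr₂ Z.mkQ
  have hγ : ∀ x y : W, γ x y = Z.mkQ (β x y) := fun _ _ => rfl
  obtain ⟨d, h1, h2⟩ := soc_of_sq ι p (σ := subRep ρ W hW) (ρ := quotRep ρ Z hZ) γ
    (fun x y => by rw [hγ, hγ, hs]) (fun g x y => by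
      rw [hγ, hγ, quotRep_mk, ← he]
      rfl) (fun h0 => hcon (by
      have h3 : γ ⟨x, hx⟩ ⟨y, hy⟩ = 0 := by rw [h0]; rfl
      rw [hγ] at h3
      exact (Submodule.Quotient.mk_eq_zero Z).1 h3))
  have h3 := h2.mem_cf
  rw [hq, Multiset.mem_singleton] at h3
  exact hc (h3 ▸ h1)

/-- the quotient by the orthogonal space -/
theorem cf_quot_orth {V : Type v} [AddCommGroup V] [Module k V] [FiniteDimensional k V]
    {ρ : Representation k (SpecialLinearGroup (Fin 2) F) V} {P : V →ₗ[k] V →ₗ[k] k} (S : F4T.SD ρ P) {X : Submodule k V}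
    {hX : ∀ g, ∀ x ∈ X, ρ g x ∈ X} {c : ℕ} (hV : IsV ι p (subRep ρ X hX) c) (hnd : F4T.Nd P X) :
    cf (Sy.{u, v, w} ι p) (quotRep ρ (orth P X) (S.orth_inv hX)) = {c} := by
  have h4 := S.cf_eq (ι := ι) (p := p) hX hnd
  have h5 := cf_add (Sy.{u, v, w} ι p) ρ (orth P X) (S.orth_inv hX)
  rw [h4, cf_irr (Sy.{u, v, w} ι p) hV, add_comm] at h5
  exact (add_left_cancel h5).symm

/-- the factors of the orthogonal space -/
theorem cf_orth {V : Type v} [AddCommGroup V] [Module k V] [FiniteDimensional k V]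
    {ρ : Representation k (SpecialLinearGroup (Fin 2) F) V} {P : V →ₗ[k] V →ₗ[k] k} (S : F4T.SD ρ P) {X : Submodule k V}
    {hX : ∀ g, ∀ x ∈ X, ρ g x ∈ X} {c : ℕ} (hV : IsV ι p (subRep ρ X hX) c) (hnd : F4T.Nd P X) {m : Multiset ℕ}
    (hcf : cf (Sy.{u, v, w} ι p) ρ = c ::ₘ m) : cf (Sy.{u, v, w} ι p) (subRep ρ (orth P X) (S.orth_inv hX)) = m := by
  have h4 := S.cf_eq (ι := ι) (p := p) hX hnd
  rw [hcf, cf_irr (Sy.{u, v, w} ι p) hV, ← Multiset.singleton_add] at h4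
  exact (add_left_cancel h4).symm

/-- all factors -/
theorem cf_all {V : Type v} [AddCommGroup V] [Module k V] [FiniteDimensional k V]
    {ρ : Representation k (SpecialLinearGroup (Fin 2) F) V} {P : V →ₗ[k] V →ₗ[k] k} (S : F4T.SD ρ P) {Y : Submodule k V}
    (hY : ∀ g, ∀ x ∈ Y, ρ g x ∈ Y) (hYn : F4T.Nd P Y) {hYo : ∀ g, ∀ x ∈ orth P Y, ρ g x ∈ orth P Y} {c : ℕ}
    (hV : IsV ι p (subRep ρ (orth P Y) hYo) c) :
    cf (Sy.{u, v, w} ι p) ρ = c ::ₘ cf (Sy.{u, v, w} ι p) (subRep ρ Y hY) := by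
  rw [S.cf_eq (ι := ι) (p := p) hY hYn, cf_irr (Sy.{u, v, w} ι p) hV, add_comm, Multiset.singleton_add]

/-- **products by characters** -/
theorem th_gen {V : Type v} [AddCommGroup V] [Module k V] [FiniteDimensional k V]
    {ρ : Representation k (SpecialLinearGroup (Fin 2) F) V} {P : V →ₗ[k] V →ₗ[k] k} (S : F4T.SD ρ P) {X : Submodule k V}
    {hX : ∀ g, ∀ x ∈ X, ρ g x ∈ X} {c : ℕ} (hV : IsV ι p (subRep ρ X hX) c) (hnd : F4T.Nd P X) {W : Submodule k V}
    (hW : ∀ g, ∀ x ∈ W, ρ g x ∈ W) (hc : c ∉ cf (Sy.{u, v, w} ι p) (Sq (subRep ρ W hW))) {β : V →ₗ[k] V →ₗ[k] V}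
    (hs : ∀ x y, β x y = β y x) (he : ∀ g x y, β (ρ g x) (ρ g y) = ρ g (β x y)) :
    ∀ x ∈ W, ∀ y ∈ W, ∀ z ∈ X, P z (β x y) = 0 := fun _ hx _ hy z hz =>
  tri_zero ι p _ (cf_quot_orth ι p S hV hnd) hW hc hs he hx hy z hz

variable (hF : Fintype.card F = p ^ a)

include hF

/-- the factors of the tensor square -/
theorem cf_sq_cg {X : Type v} [AddCommGroup X] [Module k X] [FiniteDimensional k X]
    {σ : Representation k (SpecialLinearGroup (Fin 2) F) X} {b : ℕ} (h : IsV ι p σ b)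
    (hb : ∀ i < a, b / p ^ i % p + b / p ^ i % p < p) {c : ℕ} (hc : c ∈ cf (Sy.{u, v, w} ι p) (Sq σ)) : c ∈ cg p a b b := by
  have hp : p.Prime := Fact.out
  have h1 := label_lt ι p hF h
  have h3 : cf (Sy.{u, v, w} ι p) (σ.tprod σ) = cg p a b b := by
    refine cf_of_cs ι p hF (fun x hx => (mem_cg hp.pos a hb hx).1) fun z hz => ?_
    rw [cs_tens ι p hF σ σ hz, cf_irr (Sy.{u, v, w} ι p) h, cs_singleton,
      cs_cg k p a h1 h1 hb (hz.ne_zero (two_le_q p hF))]
  rw [← h3, cf_add (Sy.{u, v, w} ι p) (σ.tprod σ) (Alt k X) (alt_inv σ)]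
  exact Multiset.mem_add.2 (Or.inr hc)

/-- **parity** -/
theorem even_of_sq {X : Type v} [AddCommGroup X] [Module k X] [FiniteDimensional k X]
    {σ : Representation k (SpecialLinearGroup (Fin 2) F) X} {b : ℕ} (h : IsV ι p σ b)
    (hb : ∀ i < a, b / p ^ i % p + b / p ^ i % p < p) {c : ℕ} (hc : c ∈ cf (Sy.{u, v, w} ι p) (Sq σ)) {i : ℕ} (hi : i < a) :
    c / p ^ i % p % 2 = 0 := by
  have hp : p.Prime := Fact.out
  have h1 := ((mem_cg hp.pos a hb (cf_sq_cg ι p hF h hb hc)).2 i hi).2.2.2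
  omega

/-- the case without overflow -/
theorem not_mem_sq_of_odd {X : Type v} [AddCommGroup X] [Module k X] [FiniteDimensional k X]
    {σ : Representation k (SpecialLinearGroup (Fin 2) F) X} {b : ℕ} (h : IsV ι p σ b)
    (hb : ∀ i < a, b / p ^ i % p + b / p ^ i % p < p) (h1 : 1 ∈ tyl p b) : b ∉ cf (Sy.{u, v, w} ι p) (Sq σ) := by
  intro hc
  obtain ⟨l, hl, e⟩ := exists_digit_lt (label_lt ι p hF h) h1
  have h2 := even_of_sq ι p hF h hb hc hl
  rw [e] at h2
  exact absurd h2 (by norm_num)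

omit [IsAlgClosed k] hF in
theorem a2_five {z : ℂ} (hz : z ≠ 0) : a2 5 z = s2 4 z := a2_succ 4 hz

/-- the factors of `S² (L(5)_j ⊗ L(1)_i)`, `p ≥ 7` -/
theorem cf_sq_51 {X : Type v} [AddCommGroup X] [Module k X] [FiniteDimensional k X]
    {σ : Representation k (SpecialLinearGroup (Fin 2) F) X} {i j : ℕ} (hp7 : 7 ≤ p) (hi : i < a) (hj : j < a) (hij : j ≠ i)
    (hdj : ∀ c ∈ sqs p a j 5, ∀ l < a, c / p ^ l % p + (2 * p ^ i) / p ^ l % p < p)
    (h : IsV ι p σ (5 * p ^ j + 1 * p ^ i)) :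
    cf (Sy.{u, v, w} ι p) (Sq σ) = ((sqs p a j 5).bind fun c => cg p a c (2 * p ^ i)) + sqs p a j 4 := by
  have hp : p.Prime := Fact.out
  have h2i : 2 * p ^ i < p ^ a := single_lt p (by omega) hi
  refine cf_of_cs ι p hF ?_ fun z hz => ?_
  · intro b hb
    rcases Multiset.mem_add.1 hb with hb | hb
    · obtain ⟨c, hc, hb⟩ := Multiset.mem_bind.1 hb
      exact (mem_cg hp.pos a (hdj c hc) hb).1
    · exact sqs_lt p hj 4 (by omega) b hb
  · have hz0 := hz.ne_zero (two_le_q p hF)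
    have hi0 := pow_ne_zero (p ^ i) hz0
    have hj0 := pow_ne_zero (p ^ j) hz0
    rw [cs_sq_pair ι p hF (by omega) (by omega) hij h hz, s2_one hi0, a2_one hi0, a2_five hj0, mul_one, cs_add,
      cs_sqs p hF hj 4 (by omega) hz, cs_bind]
    congr 1
    have h3 : ((sqs p a j 5).map fun t => cs k (cg p a t (2 * p ^ i)) z) =
        (sqs p a j 5).map fun t => chB k t z * chi 2 (z ^ p ^ i) :=
      Multiset.map_congr rfl fun c hc => by
        rw [cs_cg k p a (sqs_lt p hj 5 (by omega) c hc) h2i (hdj c hc) hz0, chB_single k p (by omega)]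
    rw [h3, Multiset.sum_map_mul_right]
    show _ = cs k (sqs p a j 5) z * _
    rw [cs_sqs p hF hj 5 (by omega) hz]

omit [DecidableEq k] [IsAlgClosed k] [CharP k p] [CharP F p] [Fintype F] [DecidableEq F] hF in
/-- the members of `one p a i n` -/
theorem mem_one {i n c : ℕ} (ha : a ≠ 1) (hc : c ∈ H28.SL2.one p a i n) :
    (n < p ∧ c = n * p ^ i) ∨ (p ≤ n ∧ (c = (n - p) * p ^ i + p ^ ((i + 1) % a) ∨ c = (p - (n - p) - 2) * p ^ i)) := by
  unfold H28.SL2.one at hc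
  split_ifs at hc with h
  · exact Or.inl ⟨h, Multiset.mem_singleton.1 hc⟩
  · refine Or.inr ⟨not_lt.1 h, ?_⟩
    unfold ov at hc
    rw [if_neg ha, Multiset.insert_eq_cons, Multiset.mem_cons, Multiset.mem_singleton] at hc
    exact hc

/-- **`b` is not a factor of `S² V_b`** -/
theorem not_mem_sq {X : Type v} [AddCommGroup X] [Module k X] [FiniteDimensional k X]
    {σ : Representation k (SpecialLinearGroup (Fin 2) F) X} {b : ℕ} (hp7 : 7 ≤ p) (hp : p = 7 ∨ 11 ≤ p) (h : IsV ι p σ b)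
    (ht : tyl p b = [1, 1, 2] ∨ tyl p b = [1, 5]) : b ∉ cf (Sy.{u, v, w} ι p) (Sq σ) := by
  have hpp : p.Prime := Fact.out
  rcases ht with ht | ht
  · refine not_mem_sq_of_odd ι p hF h (fun i _ => ?_) (by rw [ht]; simp)
    have := digit_le_of_tyl (N := 2) (by rw [ht]; simp) i
    omega
  rcases hp with hp | hp
  swap
  · refine not_mem_sq_of_odd ι p hF h (fun i _ => ?_) (by rw [ht]; simp)
    have := digit_le_of_tyl (N := 5) (by rw [ht]; simp) i
    omega
  obtain ⟨i, hi, j, hj, hij, rfl⟩ := tyl_pair_inv ht (label_lt ι p hF h) (by norm_num) (by norm_num)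
  have ha : a ≠ 1 := by omega
  have hs : j ≠ (j + 1) % a := succ_mod_ne (by omega) hj
  have e5 : sqs p a j 5 = H28.SL2.one p a j 10 + (H28.SL2.one p a j 6 + H28.SL2.one p a j 2) := rfl
  have e4 : sqs p a j 4 = H28.SL2.one p a j 8 + (H28.SL2.one p a j 4 + {0}) := rfl
  rw [add_comm] at h ⊢
  have h5 : ∀ c ∈ sqs p a j 5, c = 3 * p ^ j + p ^ ((j + 1) % a) ∨ c = 2 * p ^ j ∨ c = 6 * p ^ j := by
    intro c hc
    rw [e5] at hc
    rcases Multiset.mem_add.1 hc with hc | hc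
    · rcases mem_one p ha hc with ⟨h1, -⟩ | ⟨-, h1 | h1⟩
      · omega
      · left; rw [h1, hp]
      · right; left; rw [h1, hp]
    · rcases Multiset.mem_add.1 hc with hc | hc
      · rcases mem_one p ha hc with ⟨-, h1⟩ | ⟨h1, -⟩
        · right; right; exact h1
        · omega
      · rcases mem_one p ha hc with ⟨-, h1⟩ | ⟨h1, -⟩
        · right; left; exact h1
        · omega
  have h4 : ∀ c ∈ sqs p a j 4, c = 1 * p ^ j + p ^ ((j + 1) % a) ∨ c = 4 * p ^ j ∨ c = 0 := by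
    intro c hc
    rw [e4] at hc
    rcases Multiset.mem_add.1 hc with hc | hc
    · rcases mem_one p ha hc with ⟨h1, -⟩ | ⟨-, h1 | h1⟩
      · omega
      · left; rw [h1, hp]
      · right; left; rw [h1, hp]
    · rcases Multiset.mem_add.1 hc with hc | hc
      · rcases mem_one p ha hc with ⟨-, h1⟩ | ⟨h1, -⟩
        · right; left; exact h1
        · omega
      · rw [Multiset.mem_singleton] at hc
        right; right; exact hc
  have hd : ∀ c ∈ sqs p a j 5, ∀ l < a, c / p ^ l % p + (2 * p ^ i) / p ^ l % p < p := by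
    intro c hc l _
    rw [dg_single hpp.one_lt (by omega)]
    rcases h5 c hc with rfl | rfl | rfl
    · rw [dg_two hpp.one_lt hs (by omega)]
      split_ifs <;> omega
    · rw [dg_single hpp.one_lt (by omega)]
      split_ifs <;> omega
    · rw [dg_single hpp.one_lt (by omega)]
      split_ifs <;> omega
  rw [cf_sq_51 ι p hF hp7 hi hj (Ne.symm hij) hd h]
  intro hmem
  have hbj : (5 * p ^ j + 1 * p ^ i) / p ^ j % p = 5 := by
    rw [one_mul, dg_two hpp.one_lt (Ne.symm hij) (by omega), if_pos rfl]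
  rcases Multiset.mem_add.1 hmem with hmem | hmem
  · obtain ⟨c, hc, hb⟩ := Multiset.mem_bind.1 hmem
    have h1 := (mem_cg hpp.pos a (hd c hc) hb).2 j hj
    rw [hbj, dg_single hpp.one_lt (by omega), if_neg (Ne.symm hij)] at h1
    rcases h5 c hc with rfl | rfl | rfl
    · rw [dg_two hpp.one_lt hs (by omega), if_pos rfl] at h1
      omega
    · rw [dg_single hpp.one_lt (by omega), if_pos rfl] at h1
      omega
    · rw [dg_single hpp.one_lt (by omega), if_pos rfl] at h1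
      omega
  · rcases h4 _ hmem with h1 | h1 | h1
    · rw [h1, dg_two hpp.one_lt hs (by omega), if_pos rfl] at hbj
      omega
    · rw [h1, dg_single hpp.one_lt (by omega), if_pos rfl] at hbj
      omega
    · rw [h1, Nat.zero_div, Nat.zero_mod] at hbj
      omega

end Cfsg.Agent.R2.H27.F4Th
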